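import Mathlib
import Cfsg.Prelude.Def_Characters

set_option autoImplicit false

/-!
# Characters of multiply transitive groups: definitions (for S4560)

`fx g` = number of fixed points, `tw g` = number of ordered pairs swapped by `g`
(twice the number of 2-cycles), `pat σ g` = number of injective `k`-tuples `e` with
`g • e i = e (σ i)`.
`chA = π₁ - 1`, `chB = π₂ - π₁`, `chC = π₁₁ - π₂ - π₁ + 1`.
-/

namespace Cfsg.Agent.Lib.Helper68.AV

variable {G : Type*} [Group G] (Ω : Type*) [MulAction G Ω]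

/-- number of fixed points of `g` on `Ω` -/
noncomputable def fx (g : G) : ℕ := Nat.card (MulAction.fixedBy Ω g)

/-- number of ordered pairs swapped by `g` (twice the number of 2-cycles) -/
noncomputable def tw (g : G) : ℕ :=
  Nat.card {p : Ω × Ω // p.1 ≠ p.2 ∧ g • p.1 = p.2 ∧ g • p.2 = p.1}

/-- number of injective `k`-tuples on which `g` induces the pattern `σ` -/
noncomputable def pat {k : ℕ} (σ : Equiv.Perm (Fin k)) (g : G) : ℕ :=
  Nat.card {e : Fin k ↪ Ω // ∀ i, g • e i = e (σ i)}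

noncomputable def chA (g : G) : ℂ := (fx Ω g : ℂ) - 1

noncomputable def chB (g : G) : ℂ :=
  ((fx Ω g : ℂ) * ((fx Ω g : ℂ) - 3) + (tw Ω g : ℂ)) / 2

noncomputable def chC (g : G) : ℂ :=
  (((fx Ω g : ℂ) - 1) * ((fx Ω g : ℂ) - 2) - (tw Ω g : ℂ)) / 2

end Cfsg.Agent.Lib.Helper68.AV
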