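import Mathlib
import Cfsg.Agent.Lib.Helper68.AV.Defs

set_option autoImplicit false

/-!
PIECE AR (by helper73).  Arithmetic of the cycle types.
-/

namespace Cfsg.Agent.Lib.Helper68.AV

theorem exists_multiset_four_eight (m : ℕ) (h4 : m % 4 = 0) (h8 : 8 ≤ m) :
    ∃ M : Multiset ℕ, (∀ a ∈ M, a = 4 ∨ a = 8) ∧ Even (Multiset.card M) ∧ M.sum = m := by
  rcases Nat.even_or_odd (m / 4) with ⟨j, hj⟩ | ⟨j, hj⟩
  · refine ⟨Multiset.replicate (2 * j) 4, ?_, ?_, ?_⟩
    · intro a ha; left; exact Multiset.eq_of_mem_replicate ha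
    · rw [Multiset.card_replicate]; exact even_two_mul j
    · rw [Multiset.sum_replicate, smul_eq_mul]; omega
  · obtain ⟨i, rfl⟩ : ∃ i, j = i + 1 := ⟨j - 1, by omega⟩
    refine ⟨8 ::ₘ Multiset.replicate (2 * i + 1) 4, ?_, ?_, ?_⟩
    · intro a ha
      rcases Multiset.mem_cons.mp ha with rfl | ha
      · right; rfl
      · left; exact Multiset.eq_of_mem_replicate ha
    · rw [Multiset.card_cons, Multiset.card_replicate]; exact ⟨i + 1, by ring⟩
    · rw [Multiset.sum_cons, Multiset.sum_replicate, smul_eq_mul]; omega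

theorem exists_multiset_two_four (m : ℕ) (h2 : m % 2 = 0) (h6 : 6 ≤ m) :
    ∃ M : Multiset ℕ, (∀ a ∈ M, a = 2 ∨ a = 4) ∧ Even (Multiset.card M) ∧ M.sum = m := by
  rcases Nat.even_or_odd (m / 2) with ⟨j, hj⟩ | ⟨j, hj⟩
  · refine ⟨Multiset.replicate (2 * j) 2, ?_, ?_, ?_⟩
    · intro a ha; left; exact Multiset.eq_of_mem_replicate ha
    · rw [Multiset.card_replicate]; exact even_two_mul j
    · rw [Multiset.sum_replicate, smul_eq_mul]; omega
  · obtain ⟨i, rfl⟩ : ∃ i, j = i + 1 := ⟨j - 1, by omega⟩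
    refine ⟨4 ::ₘ Multiset.replicate (2 * i + 1) 2, ?_, ?_, ?_⟩
    · intro a ha
      rcases Multiset.mem_cons.mp ha with rfl | ha
      · right; rfl
      · left; exact Multiset.eq_of_mem_replicate ha
    · rw [Multiset.card_cons, Multiset.card_replicate]; exact ⟨i + 1, by ring⟩
    · rw [Multiset.sum_cons, Multiset.sum_replicate, smul_eq_mul]; omega

end Cfsg.Agent.Lib.Helper68.AV
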