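import Mathlib
import Cfsg.Agent.Lib.Helper68.AV.Defs

set_option autoImplicit false

namespace Cfsg.Agent.Lib.Helper68.AV

theorem fx_eq_sub_sum_cycleType {n : ℕ} (x : Equiv.Perm (Fin n)) :
    fx (Fin n) x = n - x.cycleType.sum := by
  classical
  rw [Equiv.Perm.sum_cycleType, fx]
  have h : (MulAction.fixedBy (Fin n) x : Set (Fin n)) = ((x.supportᶜ : Finset (Fin n)) : Set (Fin n)) := by
    ext i
    simp [MulAction.mem_fixedBy, Equiv.Perm.mem_support]
  rw [h, Nat.card_coe_set_eq, Set.ncard_coe_finset, Finset.card_compl, Fintype.card_fin]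

end Cfsg.Agent.Lib.Helper68.AV
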