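import Mathlib
import Cfsg.Agent.Lib.Helper68.AV.Defs

set_option autoImplicit false

namespace Cfsg.Agent.Lib.Helper68.AV

theorem tw_eq_zero_of_two_not_mem {n : ℕ} (x : Equiv.Perm (Fin n)) (h : 2 ∉ x.cycleType) :
    tw (Fin n) x = 0 := by
  classical
  unfold tw
  have : IsEmpty {p : Fin n × Fin n // p.1 ≠ p.2 ∧ x • p.1 = p.2 ∧ x • p.2 = p.1} := by
    refine ⟨fun ⟨⟨a, b⟩, hab, h1, h2⟩ => h ?_⟩
    simp only [Equiv.Perm.smul_def] at h1 h2 hab
    have ha : a ∈ x.support := by
      rw [Equiv.Perm.mem_support, h1]; exact Ne.symm hab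
    have hc : x.cycleOf a = Equiv.swap a b := by
      have hsame : ∀ y, x.SameCycle a y ↔ (y = a ∨ y = b) := by
        intro y
        constructor
        · rintro ⟨k, rfl⟩
          have key : ∀ m : ℕ, (x ^ m) a = a ∨ (x ^ m) a = b := by
            intro m
            induction m with
            | zero => left; simp
            | succ j ih =>
              rw [pow_succ', Equiv.Perm.mul_apply]
              rcases ih with e | e <;> rw [e]
              · right; exact h1
              · left; exact h2
          -- reduce integer powers to natural ones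
          obtain ⟨m, hm⟩ : ∃ m : ℕ, (x ^ k) a = (x ^ m) a := by
            obtain ⟨m, hm⟩ := (Equiv.Perm.SameCycle.exists_pow_eq' (f := x) (x := a)
              (y := (x ^ k) a) ⟨k, rfl⟩)
            exact ⟨m, hm.2.symm⟩
          rw [hm]
          exact key m
        · rintro (rfl | rfl)
          · exact Equiv.Perm.SameCycle.refl _ _
          · exact ⟨1, by simpa using h1⟩
      ext y
      congr 1
      rw [Equiv.Perm.cycleOf_apply]
      by_cases hy : x.SameCycle a y
      · rw [if_pos hy]
        rcases (hsame y).1 hy with rfl | rfl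
        · rw [h1, Equiv.swap_apply_left]
        · rw [h2, Equiv.swap_apply_right]
      · rw [if_neg hy]
        have hya : y ≠ a := fun hh => hy ((hsame y).2 (Or.inl hh))
        have hyb : y ≠ b := fun hh => hy ((hsame y).2 (Or.inr hh))
        rw [Equiv.swap_apply_of_ne_of_ne hya hyb]
    have hmem : x.cycleOf a ∈ x.cycleFactorsFinset :=
      Equiv.Perm.cycleOf_mem_cycleFactorsFinset_iff.2 ha
    rw [Equiv.Perm.cycleType_def, Multiset.mem_map]
    refine ⟨x.cycleOf a, hmem, ?_⟩
    rw [hc]
    simp [Equiv.Perm.card_support_swap hab]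
  exact Nat.card_of_isEmpty

end Cfsg.Agent.Lib.Helper68.AV
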