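import Mathlib
import Cfsg.Agent.Lib.Helper68.AV.Defs

set_option autoImplicit false

/-!
PIECE CT3 (by helper73).  Even permutations of 2-power order with a prescribed cycle type.
-/

namespace Cfsg.Agent.Lib.Helper68.AV

theorem exists_two_elt {n : ℕ} (M : Multiset ℕ) (hM : ∀ a ∈ M, a = 2 ∨ a = 4 ∨ a = 8)
    (hev : Even (Multiset.card M)) (hsum : M.sum ≤ n) :
    ∃ x : Equiv.Perm (Fin n), x ∈ alternatingGroup (Fin n) ∧ (∃ j : ℕ, orderOf x = 2 ^ j) ∧
      x.cycleType = M := by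
  obtain ⟨x, hx⟩ := (Equiv.Perm.exists_with_cycleType_iff (α := Fin n) (m := M)).mpr
    ⟨by simpa using hsum, fun a ha => by rcases hM a ha with rfl | rfl | rfl <;> norm_num⟩
  refine ⟨x, ?_, ?_, hx⟩
  · rw [Equiv.Perm.mem_alternatingGroup, Equiv.Perm.sign_of_cycleType', hx]
    have h1 : M.map (fun n => -(-1 : ℤˣ) ^ n) = M.map (fun _ => (-1 : ℤˣ)) :=
      Multiset.map_congr rfl (fun a ha => by
        rcases hM a ha with rfl | rfl | rfl <;> rw [Even.neg_one_pow (by decide)])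
    rw [h1, Multiset.map_const', Multiset.prod_replicate, hev.neg_one_pow]
  · have hd : orderOf x ∣ 2 ^ 3 := by
      rw [← Equiv.Perm.lcm_cycleType, hx]
      apply Multiset.lcm_dvd.mpr
      intro a ha
      rcases hM a ha with rfl | rfl | rfl <;> norm_num
    obtain ⟨j, _, hj⟩ := (Nat.dvd_prime_pow Nat.prime_two).1 hd
    exact ⟨j, hj⟩

end Cfsg.Agent.Lib.Helper68.AV
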