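import Mathlib
import Cfsg.Agent.Lib.Helper68.AV.Defs

set_option autoImplicit false

/-!
PIECE CT4 (by helper73).  Products of k ≥ 1 disjoint 3-cycles.
-/

namespace Cfsg.Agent.Lib.Helper68.AV

theorem exists_three_elt {n : ℕ} (k : ℕ) (hk : 1 ≤ k) (hsum : 3 * k ≤ n) :
    ∃ y : Equiv.Perm (Fin n), y ∈ alternatingGroup (Fin n) ∧ orderOf y = 3 ∧
      y.cycleType = Multiset.replicate k 3 := by
  obtain ⟨y, hy⟩ := (Equiv.Perm.exists_with_cycleType_iff (α := Fin n)
    (m := Multiset.replicate k 3)).mpr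
    ⟨by rw [Multiset.sum_replicate, smul_eq_mul, Fintype.card_fin]; omega,
      fun a ha => by rw [Multiset.eq_of_mem_replicate ha]; norm_num⟩
  refine ⟨y, ?_, ?_, hy⟩
  · rw [Equiv.Perm.mem_alternatingGroup, Equiv.Perm.sign_of_cycleType, hy, Multiset.sum_replicate,
      Multiset.card_replicate, smul_eq_mul]
    exact Even.neg_one_pow ⟨2 * k, by ring⟩
  · rw [← Equiv.Perm.lcm_cycleType, hy]
    apply Nat.dvd_antisymm
    · apply Multiset.lcm_dvd.mpr
      intro a ha
      rw [Multiset.eq_of_mem_replicate ha]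
    · apply Multiset.dvd_lcm
      rw [Multiset.mem_replicate]
      exact ⟨by omega, rfl⟩

end Cfsg.Agent.Lib.Helper68.AV
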