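import Mathlib
import Cfsg.Agent.Lib.Helper68.AV.Defs

set_option autoImplicit false

/-!
PIECE I1.  pattern 1 = injective k-tuples of fixed points.
-/

namespace Cfsg.Agent.Lib.Helper68.AV

variable {G : Type*} [Group G] (Ω : Type*) [MulAction G Ω] [Finite Ω]

theorem pat_one {k : ℕ} (g : G) :
    pat Ω (1 : Equiv.Perm (Fin k)) g = (fx Ω g).descFactorial k := by
  classical
  have : Fintype Ω := Fintype.ofFinite Ω
  unfold pat fx
  have e : {e : Fin k ↪ Ω // ∀ i, g • e i = e ((1 : Equiv.Perm (Fin k)) i)}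
      ≃ (Fin k ↪ MulAction.fixedBy Ω g) :=
    { toFun := fun e => ⟨fun i => ⟨e.1 i, e.2 i⟩, fun i j h =>
        e.1.injective (congrArg Subtype.val h)⟩
      invFun := fun e => ⟨⟨fun i => (e i).1, fun i j h => e.injective (Subtype.ext h)⟩,
        fun i => (e i).2⟩
      left_inv := fun e => rfl
      right_inv := fun e => rfl }
  rw [Nat.card_congr e, Nat.card_eq_fintype_card, Fintype.card_embedding_eq, Fintype.card_fin,
    Nat.card_eq_fintype_card]

theorem cast_desc_one (m : ℕ) : ((m.descFactorial 1 : ℕ) : ℂ) = m := by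
  simp

theorem cast_desc_two (m : ℕ) : ((m.descFactorial 2 : ℕ) : ℂ) = (m : ℂ) * ((m : ℂ) - 1) := by
  rcases m with _ | m
  · simp
  · simp only [Nat.descFactorial_succ, Nat.descFactorial_zero]
    have h1 : m + 1 - 1 = m := by omega
    rw [h1]
    push_cast
    ring

theorem cast_desc_three (m : ℕ) :
    ((m.descFactorial 3 : ℕ) : ℂ) = (m : ℂ) * ((m : ℂ) - 1) * ((m : ℂ) - 2) := by
  rcases m with _ | _ | m
  · simp
  · simp [Nat.descFactorial_succ]
  · simp only [Nat.descFactorial_succ, Nat.descFactorial_zero]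
    have h1 : m + 1 + 1 - 1 = m + 1 := by omega
    have h2 : m + 1 + 1 - 2 = m := by omega
    rw [h1, h2]
    push_cast
    ring

theorem cast_desc_four (m : ℕ) :
    ((m.descFactorial 4 : ℕ) : ℂ) = (m : ℂ) * ((m : ℂ) - 1) * ((m : ℂ) - 2) * ((m : ℂ) - 3) := by
  rcases m with _ | _ | _ | m
  · simp
  · simp [Nat.descFactorial_succ]
  · simp [Nat.descFactorial_succ]
  · simp only [Nat.descFactorial_succ, Nat.descFactorial_zero]
    have h1 : m + 1 + 1 + 1 - 1 = m + 2 := by omega
    have h2 : m + 1 + 1 + 1 - 2 = m + 1 := by omega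
    have h3 : m + 1 + 1 + 1 - 3 = m := by omega
    rw [h1, h2, h3]
    push_cast
    ring

end Cfsg.Agent.Lib.Helper68.AV
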