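import Mathlib
import Cfsg.Agent.Lib.Helper68.AV.Defs

set_option autoImplicit false

/-!
PIECE I2.
-/

namespace Cfsg.Agent.Lib.Helper68.AV

variable {G : Type*} [Group G] (Ω : Type*) [MulAction G Ω] [Finite Ω]

theorem pat_swap_two (g : G) : pat Ω (Equiv.swap (0 : Fin 2) 1) g = tw Ω g := by
  unfold pat tw
  refine Nat.card_congr
    { toFun := fun e => ⟨(e.1 0, e.1 1), fun h => by
          have := e.1.injective h
          exact absurd this (by decide), by
          have := e.2 0
          simpa using this, by
          have := e.2 1
          simpa using this⟩
      invFun := fun p => ⟨⟨![p.1.1, p.1.2], by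
          intro i j h
          fin_cases i <;> fin_cases j
          · rfl
          · exact absurd h p.2.1
          · exact absurd h.symm p.2.1
          · rfl⟩, by
          intro i
          fin_cases i
          · exact p.2.2.1
          · exact p.2.2.2⟩
      left_inv := fun e => by
        apply Subtype.ext
        ext i
        fin_cases i <;> rfl
      right_inv := fun p => rfl }

end Cfsg.Agent.Lib.Helper68.AV
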