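import Mathlib
import Cfsg.Agent.Lib.Helper68.AV.Defs

set_option autoImplicit false

/-!
PIECE I3 (by helper73).
-/

namespace Cfsg.Agent.Lib.Helper68.AV

variable {G : Type*} [Group G] (Ω : Type*) [MulAction G Ω] [Finite Ω]

theorem I3_inj {a b c : Ω} (hab : a ≠ b) (hac : a ≠ c) (hbc : b ≠ c) :
    Function.Injective ![a, b, c] := by
  intro i j hij
  have hba := hab.symm
  have hca := hac.symm
  have hcb := hbc.symm
  fin_cases i <;> fin_cases j <;> first
    | rfl
    | (exfalso; simp at hij; contradiction)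

theorem pat_swap_three (g : G) : pat Ω (Equiv.swap (0 : Fin 3) 1) g = tw Ω g * fx Ω g := by
  unfold pat tw fx
  rw [← Nat.card_prod]
  apply Nat.card_congr
  refine
    { toFun := fun e => (⟨(e.1 0, e.1 1), e.1.injective.ne (by decide), ?_, ?_⟩, ⟨e.1 2, ?_⟩)
      invFun := fun x => ⟨⟨![x.1.1.1, x.1.1.2, x.2.1], I3_inj Ω x.1.2.1 ?_ ?_⟩, ?_⟩
      left_inv := ?_
      right_inv := ?_ }
  · simpa using e.2 0
  · simpa using e.2 1
  · have := e.2 2
    rw [Equiv.swap_apply_of_ne_of_ne (by decide) (by decide)] at this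
    exact this
  · intro h
    have h1 : g • x.2.1 = x.2.1 := x.2.2
    rw [← h, x.1.2.2.1] at h1
    exact x.1.2.1 h1.symm
  · intro h
    have h1 : g • x.2.1 = x.2.1 := x.2.2
    rw [← h, x.1.2.2.2] at h1
    exact x.1.2.1 h1
  · intro i
    fin_cases i
    · simpa using x.1.2.2.1
    · simpa using x.1.2.2.2
    · have h1 : g • x.2.1 = x.2.1 := x.2.2
      have h2 : Equiv.swap (0 : Fin 3) 1 2 = 2 :=
        Equiv.swap_apply_of_ne_of_ne (by decide) (by decide)
      change g • x.2.1 = ![x.1.1.1, x.1.1.2, x.2.1] (Equiv.swap (0 : Fin 3) 1 2)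
      rw [h2]
      exact h1
  · intro e
    apply Subtype.ext
    ext i
    fin_cases i <;> rfl
  · intro x
    rfl

end Cfsg.Agent.Lib.Helper68.AV
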