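import Mathlib
import Cfsg.Agent.Lib.Helper68.AV.Defs

set_option autoImplicit false

/-!
PIECE I4.  e ↦ ((e 0, e 1), (e 2, e 3)) is a bijection from
{e : Fin 4 ↪ Ω // ∀ i, g • e i = e (swap 0 1 i)} onto T × F2.
-/

namespace Cfsg.Agent.Lib.Helper68.AV

theorem I4_inj4 {Ω : Type*} (a b c d : Ω) (hab : a ≠ b) (hac : a ≠ c) (had : a ≠ d) (hbc : b ≠ c)
    (hbd : b ≠ d) (hcd : c ≠ d) : Function.Injective ![a, b, c, d] := by
  intro i j hij
  fin_cases i <;> fin_cases j <;> simp_all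

variable {G : Type*} [Group G] (Ω : Type*) [MulAction G Ω] [Finite Ω]

theorem I4_card_F2 (g : G) :
    Nat.card {q : Ω × Ω // q.1 ≠ q.2 ∧ g • q.1 = q.1 ∧ g • q.2 = q.2}
      = fx Ω g * (fx Ω g - 1) := by
  classical
  have : Fintype Ω := Fintype.ofFinite Ω
  have h1 : fx Ω g = (Finset.univ.filter (fun x : Ω => g • x = x)).card := by
    unfold fx
    rw [Nat.card_eq_fintype_card, ← Fintype.card_subtype]
    exact Fintype.card_congr (Equiv.refl _)
  have h2 : Nat.card {q : Ω × Ω // q.1 ≠ q.2 ∧ g • q.1 = q.1 ∧ g • q.2 = q.2}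
      = (Finset.univ.filter (fun x : Ω => g • x = x)).offDiag.card := by
    rw [Nat.card_eq_fintype_card, Fintype.card_subtype]
    congr 1
    ext q
    simp only [Finset.mem_filter, Finset.mem_univ, true_and, Finset.mem_offDiag]
    tauto
  rw [h2, Finset.offDiag_card, ← h1, Nat.mul_sub_one]

theorem pat_swap_four (g : G) :
    pat Ω (Equiv.swap (0 : Fin 4) 1) g = tw Ω g * (fx Ω g * (fx Ω g - 1)) := by
  rw [← I4_card_F2, tw, ← Nat.card_prod, pat]
  have s0 : Equiv.swap (0 : Fin 4) 1 0 = 1 := by decide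
  have s1 : Equiv.swap (0 : Fin 4) 1 1 = 0 := by decide
  have s2 : Equiv.swap (0 : Fin 4) 1 2 = 2 := by decide
  have s3 : Equiv.swap (0 : Fin 4) 1 3 = 3 := by decide
  refine Nat.card_eq_of_bijective
    (fun e => (⟨(e.1 0, e.1 1), e.1.injective.ne (by decide), by simpa [s0] using e.2 0,
        by simpa [s1] using e.2 1⟩,
      ⟨(e.1 2, e.1 3), e.1.injective.ne (by decide), by simpa [s2] using e.2 2,
        by simpa [s3] using e.2 3⟩)) ⟨?_, ?_⟩
  · intro e e' h
    simp only [Prod.mk.injEq, Subtype.mk.injEq] at h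
    obtain ⟨⟨h0, h1⟩, h2, h3⟩ := h
    apply Subtype.ext
    ext i
    fin_cases i
    · exact h0
    · exact h1
    · exact h2
    · exact h3
  · rintro ⟨⟨⟨a, b⟩, hab, hga, hgb⟩, ⟨⟨c, d⟩, hcd, hgc, hgd⟩⟩
    simp only at hab hga hgb hcd hgc hgd
    have hac : a ≠ c := by
      rintro rfl
      exact hab (hgc.symm.trans hga)
    have had : a ≠ d := by
      rintro rfl
      exact hab (hgd.symm.trans hga)
    have hbc : b ≠ c := by
      rintro rfl
      exact hab (hgb.symm.trans hgc)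
    have hbd : b ≠ d := by
      rintro rfl
      exact hab (hgb.symm.trans hgd)
    refine ⟨⟨⟨![a, b, c, d], I4_inj4 a b c d hab hac had hbc hbd hcd⟩, ?_⟩, rfl⟩
    intro i
    fin_cases i
    · show g • a = ![a, b, c, d] (Equiv.swap (0 : Fin 4) 1 0)
      rw [s0]; exact hga
    · show g • b = ![a, b, c, d] (Equiv.swap (0 : Fin 4) 1 1)
      rw [s1]; exact hgb
    · show g • c = ![a, b, c, d] (Equiv.swap (0 : Fin 4) 1 2)
      rw [s2]; exact hgc
    · show g • d = ![a, b, c, d] (Equiv.swap (0 : Fin 4) 1 3)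
      rw [s3]; exact hgd

end Cfsg.Agent.Lib.Helper68.AV
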