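import Mathlib
import Cfsg.Agent.Lib.Helper68.AV.Defs
import Cfsg.Agent.Lib.Helper68.AV.I4

set_option autoImplicit false

/-!
PIECE I5.  `T × T` is the disjoint union of the diagonal, the twisted diagonal and the pairs of
disjoint swapped pairs.
-/

namespace Cfsg.Agent.Lib.Helper68.AV

variable {G : Type*} [Group G] (Ω : Type*) [MulAction G Ω] [Finite Ω]

/-- the swapped ordered pairs -/
abbrev I5_T (g : G) := {p : Ω × Ω // p.1 ≠ p.2 ∧ g • p.1 = p.2 ∧ g • p.2 = p.1}

/-- the pairs of disjoint swapped pairs -/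
def I5_N (g : G) (x : I5_T Ω g × I5_T Ω g) : Prop := x.2.1.1 ≠ x.1.1.1 ∧ x.2.1.1 ≠ x.1.1.2

theorem I5_pat (g : G) :
    pat Ω (Equiv.swap (0 : Fin 4) 1 * Equiv.swap (2 : Fin 4) 3) g
      = Nat.card {x : I5_T Ω g × I5_T Ω g // I5_N Ω g x} := by
  rw [pat]
  have s0 : (Equiv.swap (0 : Fin 4) 1 * Equiv.swap (2 : Fin 4) 3) 0 = 1 := by decide
  have s1 : (Equiv.swap (0 : Fin 4) 1 * Equiv.swap (2 : Fin 4) 3) 1 = 0 := by decide
  have s2 : (Equiv.swap (0 : Fin 4) 1 * Equiv.swap (2 : Fin 4) 3) 2 = 3 := by decide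
  have s3 : (Equiv.swap (0 : Fin 4) 1 * Equiv.swap (2 : Fin 4) 3) 3 = 2 := by decide
  refine Nat.card_eq_of_bijective
    (fun e => ⟨(⟨(e.1 0, e.1 1), e.1.injective.ne (by decide), (e.2 0).trans (congrArg e.1 s0),
        (e.2 1).trans (congrArg e.1 s1)⟩,
      ⟨(e.1 2, e.1 3), e.1.injective.ne (by decide), (e.2 2).trans (congrArg e.1 s2),
        (e.2 3).trans (congrArg e.1 s3)⟩),
      ⟨e.1.injective.ne (by decide), e.1.injective.ne (by decide)⟩⟩) ⟨?_, ?_⟩
  · intro e e' h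
    have h0 : e.1 0 = e'.1 0 := congrArg (fun x => x.1.1.1.1) h
    have h1 : e.1 1 = e'.1 1 := congrArg (fun x => x.1.1.1.2) h
    have h2 : e.1 2 = e'.1 2 := congrArg (fun x => x.1.2.1.1) h
    have h3 : e.1 3 = e'.1 3 := congrArg (fun x => x.1.2.1.2) h
    apply Subtype.ext
    ext i
    fin_cases i
    · exact h0
    · exact h1
    · exact h2
    · exact h3
  · rintro ⟨⟨⟨⟨a, b⟩, hab, hga, hgb⟩, ⟨⟨c, d⟩, hcd, hgc, hgd⟩⟩, hca, hcb⟩
    simp only at hab hga hgb hcd hgc hgd hca hcb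
    have had : a ≠ d := by
      rintro rfl
      exact hcb (hgd.symm.trans hga)
    have hbd : b ≠ d := by
      rintro rfl
      exact hca (hgd.symm.trans hgb)
    refine ⟨⟨⟨![a, b, c, d], I4_inj4 a b c d hab hca.symm had hcb.symm hbd hcd⟩, ?_⟩, rfl⟩
    intro i
    fin_cases i
    · show g • a = ![a, b, c, d] ((Equiv.swap (0 : Fin 4) 1 * Equiv.swap (2 : Fin 4) 3) 0)
      rw [s0]; exact hga
    · show g • b = ![a, b, c, d] ((Equiv.swap (0 : Fin 4) 1 * Equiv.swap (2 : Fin 4) 3) 1)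
      rw [s1]; exact hgb
    · show g • c = ![a, b, c, d] ((Equiv.swap (0 : Fin 4) 1 * Equiv.swap (2 : Fin 4) 3) 2)
      rw [s2]; exact hgc
    · show g • d = ![a, b, c, d] ((Equiv.swap (0 : Fin 4) 1 * Equiv.swap (2 : Fin 4) 3) 3)
      rw [s3]; exact hgd

theorem pat_swap_swap (g : G) :
    pat Ω (Equiv.swap (0 : Fin 4) 1 * Equiv.swap (2 : Fin 4) 3) g + 2 * tw Ω g
      = tw Ω g * tw Ω g := by
  classical
  have : Fintype Ω := Fintype.ofFinite Ω
  have ht : tw Ω g = Fintype.card (I5_T Ω g) := by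
    unfold tw
    rw [Nat.card_eq_fintype_card]
  let sw : I5_T Ω g → I5_T Ω g := fun p => ⟨(p.1.2, p.1.1), p.2.1.symm, p.2.2.2, p.2.2.1⟩
  have hC : Finset.univ.filter (fun x : I5_T Ω g × I5_T Ω g => ¬ I5_N Ω g x)
      = Finset.univ.image (fun p : I5_T Ω g => (p, p)) ∪
        Finset.univ.image (fun p : I5_T Ω g => (p, sw p)) := by
    ext ⟨p, q⟩
    rw [Finset.mem_filter, Finset.mem_union, Finset.mem_image, Finset.mem_image]
    simp only [Finset.mem_univ, true_and, Prod.mk.injEq, I5_N]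
    constructor
    · intro h
      by_cases h1 : q.1.1 = p.1.1
      · left
        refine ⟨p, rfl, ?_⟩
        apply Subtype.ext
        apply Prod.ext h1.symm
        rw [← p.2.2.1, ← q.2.2.1, h1]
      · right
        have h2 : q.1.1 = p.1.2 := by
          by_contra h2
          exact h ⟨h1, h2⟩
        refine ⟨p, rfl, ?_⟩
        apply Subtype.ext
        apply Prod.ext h2.symm
        show p.1.1 = q.1.2
        rw [← p.2.2.2, ← q.2.2.1, h2]
    · rintro (⟨r, rfl, rfl⟩ | ⟨r, rfl, rfl⟩)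
      · intro h
        exact h.1 rfl
      · intro h
        exact h.2 rfl
  have hdisj : Disjoint (Finset.univ.image (fun p : I5_T Ω g => (p, p)))
      (Finset.univ.image (fun p : I5_T Ω g => (p, sw p))) := by
    rw [Finset.disjoint_left]
    intro x hx hx'
    simp only [Finset.mem_image, Finset.mem_univ, true_and] at hx hx'
    obtain ⟨p, rfl⟩ := hx
    obtain ⟨r, hr⟩ := hx'
    simp only [Prod.mk.injEq] at hr
    obtain ⟨rfl, h2⟩ := hr
    exact r.2.1 (congrArg (fun z : I5_T Ω g => z.1.1) h2).symm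
  have hcard := Finset.card_filter_add_card_filter_not (s := (Finset.univ : Finset (I5_T Ω g × I5_T Ω g)))
    (fun x => I5_N Ω g x)
  rw [hC, Finset.card_union_of_disjoint hdisj,
    Finset.card_image_of_injective _ (fun a b h => (Prod.mk.inj h).1),
    Finset.card_image_of_injective _ (fun a b h => (Prod.mk.inj h).1),
    Finset.card_univ, Finset.card_univ, Fintype.card_prod, ← Fintype.card_subtype,
    ← Nat.card_eq_fintype_card, ← I5_pat, ← ht] at hcard
  omega

end Cfsg.Agent.Lib.Helper68.AV
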