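import Mathlib
import Cfsg.Agent.Lib.Helper68.AV.Defs

set_option autoImplicit false

namespace Cfsg.Agent.Lib.Helper68.AV

open scoped Pointwise

theorem I6_pair_eq {α : Type*} [DecidableEq α] {x y a b : α} :
    ({x, y} : Finset α) = {a, b} ↔ (x = a ∧ y = b) ∨ (x = b ∧ y = a) := by
  rw [← Finset.coe_inj, Finset.coe_pair, Finset.coe_pair, Set.pair_eq_pair_iff]

variable {G : Type*} [Group G] (Ω : Type*) [MulAction G Ω] [Finite Ω] [DecidableEq Ω]

theorem two_mul_card_fixedBy_pairs (g : G) :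
    2 * Nat.card (MulAction.fixedBy (Set.powersetCard Ω 2) g)
      = fx Ω g * (fx Ω g - 1) + tw Ω g := by
  have := Fintype.ofFinite Ω
  set A : Finset (Ω × Ω) := Finset.univ.filter
    (fun p => p.1 ≠ p.2 ∧ g • ({p.1, p.2} : Finset Ω) = {p.1, p.2}) with hA
  set B : Finset (Finset Ω) := (Finset.univ.powersetCard 2).filter (fun s => g • s = s) with hB
  set Fx : Finset Ω := Finset.univ.filter (fun a => g • a = a) with hFx
  -- translation of the three cardinalities
  have hfx : fx Ω g = Fx.card := by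
    rw [fx, Nat.card_eq_fintype_card, hFx, ← Fintype.card_subtype]
    rfl
  have htw : tw Ω g = (Finset.univ.filter
      (fun p : Ω × Ω => p.1 ≠ p.2 ∧ g • p.1 = p.2 ∧ g • p.2 = p.1)).card := by
    rw [tw, Nat.card_eq_fintype_card, Fintype.card_subtype]
  have hBmem : ∀ s : Finset Ω, s ∈ B ↔ s.card = 2 ∧ g • s = s := by
    intro s
    rw [hB, Finset.mem_filter, Finset.mem_powersetCard]
    simp
  have hfix : Nat.card (MulAction.fixedBy (Set.powersetCard Ω 2) g) = B.card := by
    rw [← Nat.card_eq_finsetCard B]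
    refine Nat.card_congr ⟨fun s => ⟨s.1.1, ?_⟩, fun s => ⟨⟨s.1, ?_⟩, ?_⟩, ?_, ?_⟩
    · rw [hB, Finset.mem_filter, Finset.mem_powersetCard]
      refine ⟨⟨Finset.subset_univ _, Set.powersetCard.mem_iff.1 s.1.2⟩, ?_⟩
      have := s.2
      rw [MulAction.mem_fixedBy] at this
      rw [← Set.powersetCard.coe_smul, this]
    · exact Set.powersetCard.mem_iff.2 ((hBmem _).1 s.2).1
    · rw [MulAction.mem_fixedBy]
      apply Subtype.ext
      rw [Set.powersetCard.coe_smul]
      exact ((hBmem _).1 s.2).2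
    · intro s; rfl
    · intro s; rfl
  -- fibres of size two
  have h1 : A.card = 2 * B.card := by
    have hmap : ∀ p ∈ A, ({p.1, p.2} : Finset Ω) ∈ B := by
      intro p hp
      rw [hA, Finset.mem_filter] at hp
      rw [hB, Finset.mem_filter, Finset.mem_powersetCard]
      exact ⟨⟨Finset.subset_univ _, Finset.card_pair hp.2.1⟩, hp.2.2⟩
    rw [Finset.card_eq_sum_card_fiberwise hmap]
    have hfib : ∀ s ∈ B, (A.filter (fun p => ({p.1, p.2} : Finset Ω) = s)).card = 2 := by
      intro s hs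
      rw [hB, Finset.mem_filter, Finset.mem_powersetCard] at hs
      obtain ⟨a, b, hab, rfl⟩ := Finset.card_eq_two.1 hs.1.2
      have : A.filter (fun p => ({p.1, p.2} : Finset Ω) = {a, b}) = {(a, b), (b, a)} := by
        ext ⟨x, y⟩
        simp only [hA, Finset.mem_filter, Finset.mem_univ, true_and, Finset.mem_insert,
          Finset.mem_singleton, Prod.mk.injEq, I6_pair_eq]
        constructor
        · rintro ⟨-, h⟩; exact h
        · rintro (⟨rfl, rfl⟩ | ⟨rfl, rfl⟩)
          · exact ⟨⟨hab, hs.2⟩, Or.inl ⟨rfl, rfl⟩⟩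
          · refine ⟨⟨hab.symm, ?_⟩, Or.inr ⟨rfl, rfl⟩⟩
            rw [Finset.pair_comm]; exact hs.2
      rw [this, Finset.card_pair]
      intro h
      exact hab (Prod.mk.inj h).1
    rw [Finset.sum_congr rfl hfib, Finset.sum_const, smul_eq_mul, mul_comm]
  -- the two kinds of pairs
  have h2 : A = Fx.offDiag ∪ Finset.univ.filter
      (fun p : Ω × Ω => p.1 ≠ p.2 ∧ g • p.1 = p.2 ∧ g • p.2 = p.1) := by
    ext ⟨x, y⟩
    simp only [hA, hFx, Finset.mem_filter, Finset.mem_univ, true_and, Finset.mem_union,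
      Finset.mem_offDiag, Finset.smul_finset_insert, Finset.smul_finset_singleton, I6_pair_eq]
    tauto
  have h3 : Disjoint Fx.offDiag (Finset.univ.filter
      (fun p : Ω × Ω => p.1 ≠ p.2 ∧ g • p.1 = p.2 ∧ g • p.2 = p.1)) := by
    rw [Finset.disjoint_left]
    rintro ⟨x, y⟩ hp hq
    simp only [hFx, Finset.mem_filter, Finset.mem_univ, true_and, Finset.mem_offDiag] at hp hq
    exact hq.1 (hp.1.symm.trans hq.2.1)
  rw [hfix, ← h1, h2, Finset.card_union_of_disjoint h3, Finset.offDiag_card, hfx, htw,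
    Nat.mul_sub_one]

end Cfsg.Agent.Lib.Helper68.AV
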