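import Mathlib
import Cfsg.Agent.Lib.Helper68.AV.Defs

set_option autoImplicit false

namespace Cfsg.Agent.Lib.Helper68.AV

theorem sum_pat {G : Type*} [Group G] [Fintype G] (Ω : Type*) [MulAction G Ω] [Finite Ω] {k : ℕ}
    [MulAction.IsMultiplyPretransitive G Ω k] (hk : k ≤ Nat.card Ω) (σ : Equiv.Perm (Fin k)) :
    ∑ g : G, pat Ω σ g = Nat.card G := by
  classical
  have := Fintype.ofFinite Ω
  have hne : Nonempty (Fin k ↪ Ω) := by
    apply Function.Embedding.nonempty_of_card_le
    rw [Fintype.card_fin, ← Nat.card_eq_fintype_card]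
    exact hk
  let τ : (Fin k ↪ Ω) → (Fin k ↪ Ω) := fun e => σ.toEmbedding.trans e
  have hpat : ∀ g : G, pat Ω σ g = ∑ e : Fin k ↪ Ω, if g • e = τ e then 1 else 0 := by
    intro g
    rw [pat, Nat.card_eq_fintype_card, Fintype.card_subtype, Finset.card_filter]
    apply Finset.sum_congr rfl
    intro e _
    have : (∀ i, g • e i = e (σ i)) ↔ g • e = τ e := by
      rw [Function.Embedding.ext_iff]
      rfl
    simp only [this]
  simp only [hpat]
  rw [Finset.sum_comm]
  have hstab : ∀ e : Fin k ↪ Ω, (∑ g : G, if g • e = τ e then 1 else 0) =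
      Nat.card (MulAction.stabilizer G e) := by
    intro e
    obtain ⟨g₀, hg₀⟩ := MulAction.exists_smul_eq G e (τ e)
    rw [← Finset.card_filter, ← Fintype.card_subtype, ← Nat.card_eq_fintype_card]
    refine Nat.card_congr ⟨fun g => ⟨g₀⁻¹ * g.1, ?_⟩, fun h => ⟨g₀ * h.1, ?_⟩, ?_, ?_⟩
    · rw [MulAction.mem_stabilizer_iff, mul_smul, g.2, ← hg₀, inv_smul_smul]
    · rw [mul_smul, MulAction.mem_stabilizer_iff.1 h.2, hg₀]
    · intro g; simp
    · intro h; simp
  simp only [hstab]
  have hcard : ∀ e : Fin k ↪ Ω, Nat.card (MulAction.stabilizer G e) * Nat.card (Fin k ↪ Ω) =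
      Nat.card G := by
    intro e
    rw [← MulAction.index_stabilizer_of_transitive G e, Subgroup.card_mul_index]
  have hpos : 0 < Nat.card (Fin k ↪ Ω) := Nat.card_pos
  apply Nat.eq_of_mul_eq_mul_right hpos
  rw [Finset.sum_mul]
  simp only [hcard]
  rw [Finset.sum_const, Finset.card_univ, smul_eq_mul, Nat.card_eq_fintype_card (α := Fin k ↪ Ω),
    mul_comm]

end Cfsg.Agent.Lib.Helper68.AV
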