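import Mathlib
import Cfsg.Agent.Lib.Helper68.AV.PAT
import Cfsg.Agent.Lib.Helper68.AV.I1
import Cfsg.Agent.Lib.Helper68.AV.I2
import Cfsg.Agent.Lib.Helper68.AV.I3
import Cfsg.Agent.Lib.Helper68.AV.I4
import Cfsg.Agent.Lib.Helper68.AV.I5

set_option autoImplicit false

/-! Moments of `fx` and `tw` for a 4-transitive group. -/

namespace Cfsg.Agent.Lib.Helper68.AV

variable {G : Type*} [Group G] [Fintype G] (Ω : Type*) [MulAction G Ω] [Finite Ω]

theorem sum_desc {k : ℕ} [MulAction.IsMultiplyPretransitive G Ω k] (hk : k ≤ Nat.card Ω) :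
    ∑ g : G, (((fx Ω g).descFactorial k : ℕ) : ℂ) = Nat.card G := by
  have h := sum_pat (G := G) Ω hk (1 : Equiv.Perm (Fin k))
  simp only [pat_one] at h
  exact_mod_cast h

variable [MulAction.IsMultiplyPretransitive G Ω 4]

theorem mom1 (h4 : 4 ≤ Nat.card Ω) : ∑ g : G, (fx Ω g : ℂ) = Nat.card G := by
  have : MulAction.IsMultiplyPretransitive G Ω 1 :=
    MulAction.isMultiplyPretransitive_of_le (n := 4) (by norm_num) h4
  have h := sum_desc (G := G) Ω (k := 1) (by omega)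
  simpa only [cast_desc_one] using h

theorem mom2 (h4 : 4 ≤ Nat.card Ω) :
    ∑ g : G, (fx Ω g : ℂ) * ((fx Ω g : ℂ) - 1) = Nat.card G := by
  have : MulAction.IsMultiplyPretransitive G Ω 2 :=
    MulAction.isMultiplyPretransitive_of_le (n := 4) (by norm_num) h4
  have h := sum_desc (G := G) Ω (k := 2) (by omega)
  simpa only [cast_desc_two] using h

theorem mom3 (h4 : 4 ≤ Nat.card Ω) :
    ∑ g : G, (fx Ω g : ℂ) * ((fx Ω g : ℂ) - 1) * ((fx Ω g : ℂ) - 2) = Nat.card G := by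
  have : MulAction.IsMultiplyPretransitive G Ω 3 :=
    MulAction.isMultiplyPretransitive_of_le (n := 4) (by norm_num) h4
  have h := sum_desc (G := G) Ω (k := 3) (by omega)
  simpa only [cast_desc_three] using h

theorem mom4 (h4 : 4 ≤ Nat.card Ω) :
    ∑ g : G, (fx Ω g : ℂ) * ((fx Ω g : ℂ) - 1) * ((fx Ω g : ℂ) - 2) * ((fx Ω g : ℂ) - 3)
      = Nat.card G := by
  have h := sum_desc (G := G) Ω (k := 4) h4
  simpa only [cast_desc_four] using h

theorem momT1 (h4 : 4 ≤ Nat.card Ω) : ∑ g : G, (tw Ω g : ℂ) = Nat.card G := by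
  have : MulAction.IsMultiplyPretransitive G Ω 2 :=
    MulAction.isMultiplyPretransitive_of_le (n := 4) (by norm_num) h4
  have h := sum_pat (G := G) Ω (k := 2) (by omega) (Equiv.swap (0 : Fin 2) 1)
  simp only [pat_swap_two] at h
  exact_mod_cast h

theorem momT2 (h4 : 4 ≤ Nat.card Ω) : ∑ g : G, (tw Ω g : ℂ) * (fx Ω g : ℂ) = Nat.card G := by
  have : MulAction.IsMultiplyPretransitive G Ω 3 :=
    MulAction.isMultiplyPretransitive_of_le (n := 4) (by norm_num) h4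
  have h := sum_pat (G := G) Ω (k := 3) (by omega) (Equiv.swap (0 : Fin 3) 1)
  simp only [pat_swap_three] at h
  exact_mod_cast h

theorem cast_mul_pred (m : ℕ) : ((m * (m - 1) : ℕ) : ℂ) = (m : ℂ) * ((m : ℂ) - 1) := by
  cases m with
  | zero => simp
  | succ m => push_cast; simp

theorem momT3 (h4 : 4 ≤ Nat.card Ω) :
    ∑ g : G, (tw Ω g : ℂ) * ((fx Ω g : ℂ) * ((fx Ω g : ℂ) - 1)) = Nat.card G := by
  have h := sum_pat (G := G) Ω (k := 4) h4 (Equiv.swap (0 : Fin 4) 1)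
  simp only [pat_swap_four] at h
  have h' : ∑ g : G, ((tw Ω g * (fx Ω g * (fx Ω g - 1)) : ℕ) : ℂ) = Nat.card G := by
    exact_mod_cast h
  rw [← h']
  refine Finset.sum_congr rfl fun g _ => ?_
  rw [Nat.cast_mul, cast_mul_pred]

theorem momT4 (h4 : 4 ≤ Nat.card Ω) :
    ∑ g : G, ((tw Ω g : ℂ) * (tw Ω g : ℂ) - 2 * (tw Ω g : ℂ)) = Nat.card G := by
  have h := sum_pat (G := G) Ω (k := 4) h4 (Equiv.swap (0 : Fin 4) 1 * Equiv.swap (2 : Fin 4) 3)
  have h' : ∑ g : G, ((pat Ω (Equiv.swap (0 : Fin 4) 1 * Equiv.swap (2 : Fin 4) 3) g : ℕ) : ℂ)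
      = Nat.card G := by
    exact_mod_cast h
  rw [← h']
  refine Finset.sum_congr rfl fun g _ => ?_
  have := pat_swap_swap Ω g
  have h2 : ((pat Ω (Equiv.swap (0 : Fin 4) 1 * Equiv.swap (2 : Fin 4) 3) g : ℕ) : ℂ)
      + 2 * (tw Ω g : ℂ) = (tw Ω g : ℂ) * (tw Ω g : ℂ) := by
    exact_mod_cast this
  rw [← h2]; ring

end Cfsg.Agent.Lib.Helper68.AV
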