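import Mathlib
import Cfsg.Agent.Lib.Helper68.AV.Mom
import Cfsg.Agent.Lib.Helper68.AV.I6
import Cfsg.Agent.Lib.Helper26.Virtual
import Cfsg.Agent.Lib.Helper3.Perm
import Cfsg.Agent.Lib.Helper15.CharTools

set_option autoImplicit false

/-! `chA`, `chB`, `chC` are irreducible characters of a 4-transitive group. -/

namespace Cfsg.Agent.Lib.Helper68.AV

open Cfsg
open scoped ComplexConjugate

section norms

variable {G : Type*} [Group G] [Fintype G] (Ω : Type*) [MulAction G Ω] [Finite Ω]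
  [MulAction.IsMultiplyPretransitive G Ω 4]

theorem card_ne_zero' : (Nat.card G : ℂ) ≠ 0 := by
  exact_mod_cast Nat.card_pos.ne'

theorem sum_one' : ∑ _g : G, (1 : ℂ) = Nat.card G := by
  simp [Nat.card_eq_fintype_card]

theorem momTT (h4 : 4 ≤ Nat.card Ω) :
    ∑ g : G, (tw Ω g : ℂ) * (tw Ω g : ℂ) = 3 * (Nat.card G : ℂ) := by
  have h := momT4 (G := G) Ω h4
  rw [Finset.sum_sub_distrib, ← Finset.mul_sum, momT1 Ω h4] at h
  linear_combination h

theorem norm_chA (h4 : 4 ≤ Nat.card Ω) : classInner (chA (G := G) Ω) (chA Ω) = 1 := by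
  have hc := card_ne_zero' (G := G)
  have hconj : ∀ g : G, conj (chA Ω g) = chA Ω g := by
    intro g; simp [chA]
  have hsq : ∀ g : G, chA Ω g * chA Ω g =
      (fx Ω g : ℂ) * ((fx Ω g : ℂ) - 1) - (fx Ω g : ℂ) + 1 := by
    intro g; simp only [chA]; ring
  simp only [classInner, hconj, hsq, Finset.sum_add_distrib, Finset.sum_sub_distrib]
  rw [mom1 Ω h4, mom2 Ω h4, sum_one']
  field_simp
  ring

theorem norm_chB (h4 : 4 ≤ Nat.card Ω) : classInner (chB (G := G) Ω) (chB Ω) = 1 := by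
  have hc := card_ne_zero' (G := G)
  have hconj : ∀ g : G, conj (chB Ω g) = chB Ω g := by
    intro g; simp [chB, Complex.conj_ofNat]
  have hsq : ∀ g : G, chB Ω g * chB Ω g =
      (1 / 4 : ℂ) * ((fx Ω g : ℂ) * ((fx Ω g : ℂ) - 1) * ((fx Ω g : ℂ) - 2) * ((fx Ω g : ℂ) - 3))
      - (1 / 2 : ℂ) * ((fx Ω g : ℂ) * ((fx Ω g : ℂ) - 1))
      + (fx Ω g : ℂ)
      + (1 / 2 : ℂ) * ((tw Ω g : ℂ) * ((fx Ω g : ℂ) * ((fx Ω g : ℂ) - 1)))
      - (tw Ω g : ℂ) * (fx Ω g : ℂ)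
      + (1 / 4 : ℂ) * ((tw Ω g : ℂ) * (tw Ω g : ℂ) - 2 * (tw Ω g : ℂ))
      + (1 / 2 : ℂ) * (tw Ω g : ℂ) := by
    intro g; simp only [chB]; ring
  simp only [classInner, hconj, hsq, Finset.sum_add_distrib, Finset.sum_sub_distrib,
    ← Finset.mul_sum]
  rw [mom1 Ω h4, mom2 Ω h4, mom4 Ω h4, momT1 Ω h4, momT2 Ω h4, momT3 Ω h4, momTT Ω h4]
  field_simp
  ring

theorem norm_chC (h4 : 4 ≤ Nat.card Ω) : classInner (chC (G := G) Ω) (chC Ω) = 1 := by
  have hc := card_ne_zero' (G := G)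
  have hconj : ∀ g : G, conj (chC Ω g) = chC Ω g := by
    intro g; simp [chC, Complex.conj_ofNat]
  have hsq : ∀ g : G, chC Ω g * chC Ω g =
      (1 / 4 : ℂ) * ((fx Ω g : ℂ) * ((fx Ω g : ℂ) - 1) * ((fx Ω g : ℂ) - 2) * ((fx Ω g : ℂ) - 3))
      + (1 / 2 : ℂ) * ((fx Ω g : ℂ) * ((fx Ω g : ℂ) - 1))
      - (fx Ω g : ℂ)
      + 1
      - (1 / 2 : ℂ) * ((tw Ω g : ℂ) * ((fx Ω g : ℂ) * ((fx Ω g : ℂ) - 1)))
      + (tw Ω g : ℂ) * (fx Ω g : ℂ)
      + (1 / 4 : ℂ) * ((tw Ω g : ℂ) * (tw Ω g : ℂ) - 2 * (tw Ω g : ℂ))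
      - (1 / 2 : ℂ) * (tw Ω g : ℂ) := by
    intro g; simp only [chC]; ring
  simp only [classInner, hconj, hsq, Finset.sum_add_distrib, Finset.sum_sub_distrib,
    ← Finset.mul_sum]
  rw [mom1 Ω h4, mom2 Ω h4, mom4 Ω h4, momT1 Ω h4, momT2 Ω h4, momT3 Ω h4, momTT Ω h4, sum_one']
  field_simp
  ring

end norms

section gen

variable {G : Type*} [Group G] [Fintype G] (Ω : Type*) [MulAction G Ω] [Finite Ω]

theorem gen_one' : IsGeneralizedCharacter G (fun _ => (1 : ℂ)) :=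
  Helper26.gen_of_irr Helper3.isIrrCharacter_one

theorem gen_fix (X : Type*) [MulAction G X] [Finite X] :
    IsGeneralizedCharacter G (fun g => (Nat.card (MulAction.fixedBy X g) : ℂ)) :=
  Helper26.gen_of_char (Helper3.isCharacter_card_fixedBy X)

theorem gen_chA : IsGeneralizedCharacter G (chA (G := G) Ω) := by
  have h := Helper26.gen_sub (gen_fix (G := G) Ω) (gen_one' (G := G))
  convert h using 1
  funext g
  simp [chA, fx]

theorem pi2_eq [DecidableEq Ω] (g : G) :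
    (Nat.card (MulAction.fixedBy (Set.powersetCard Ω 2) g) : ℂ)
      = ((fx Ω g : ℂ) * ((fx Ω g : ℂ) - 1) + (tw Ω g : ℂ)) / 2 := by
  have h := two_mul_card_fixedBy_pairs Ω g
  have h' : (2 : ℂ) * (Nat.card (MulAction.fixedBy (Set.powersetCard Ω 2) g) : ℂ)
      = ((fx Ω g * (fx Ω g - 1) : ℕ) : ℂ) + (tw Ω g : ℂ) := by
    exact_mod_cast h
  rw [cast_mul_pred] at h'
  rw [← h']; ring

theorem pi11_eq (g : G) :
    (Nat.card (MulAction.fixedBy (Fin 2 ↪ Ω) g) : ℂ)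
      = (fx Ω g : ℂ) * ((fx Ω g : ℂ) - 1) := by
  have h := Helper3.card_fixedBy_embedding_two Ω g
  have h' : (fx Ω g : ℂ) * (fx Ω g : ℂ) = (fx Ω g : ℂ) +
      (Nat.card (MulAction.fixedBy (Fin 2 ↪ Ω) g) : ℂ) := by
    unfold fx
    exact_mod_cast h
  linear_combination -h'

theorem gen_chB : IsGeneralizedCharacter G (chB (G := G) Ω) := by
  classical
  have h := Helper26.gen_sub (gen_fix (G := G) (Set.powersetCard Ω 2)) (gen_fix (G := G) Ω)
  convert h using 1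
  funext g
  simp only [Pi.sub_apply, pi2_eq, chB]
  change _ = _ - (fx Ω g : ℂ)
  ring

theorem gen_chC : IsGeneralizedCharacter G (chC (G := G) Ω) := by
  classical
  have h := Helper26.gen_add (Helper26.gen_sub (Helper26.gen_sub (gen_fix (G := G) (Fin 2 ↪ Ω))
    (gen_fix (G := G) (Set.powersetCard Ω 2))) (gen_fix (G := G) Ω)) (gen_one' (G := G))
  convert h using 1
  funext g
  simp only [Pi.sub_apply, Pi.add_apply, pi2_eq, pi11_eq, chC]
  change _ = _ - (fx Ω g : ℂ) + 1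
  ring

end gen

section irr

variable {G : Type*} [Group G] [Fintype G]

theorem irr_of_gen {a : G → ℂ} (ha : IsGeneralizedCharacter G a) (h1 : classInner a a = 1)
    (m : ℕ) (hm : 0 < m) (h : 2 * a 1 = m) : IsIrrCharacter G a := by
  rcases Helper26.gen_norm_one ha h1 with h' | h'
  · exact h'
  · exfalso
    obtain ⟨k, hk⟩ := Helper15.char_one_nat (Helper15.irr_char h')
    have hk' : a 1 = -(k : ℂ) := by
      have : -(a 1) = k := hk
      rw [← this]; ring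
    rw [hk'] at h
    have h3 : ((m + 2 * k : ℕ) : ℂ) = 0 := by
      push_cast; rw [← h]; ring
    have h4 : m + 2 * k = 0 := by exact_mod_cast h3
    omega

variable (Ω : Type*) [MulAction G Ω] [Finite Ω]

theorem fx_one : fx Ω (1 : G) = Nat.card Ω := by
  unfold fx
  rw [MulAction.fixedBy_one_eq_univ]
  exact Nat.card_congr (Equiv.Set.univ Ω)

theorem tw_one : tw Ω (1 : G) = 0 := by
  unfold tw
  have : IsEmpty {p : Ω × Ω // p.1 ≠ p.2 ∧ (1 : G) • p.1 = p.2 ∧ (1 : G) • p.2 = p.1} := by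
    refine ⟨fun p => ?_⟩
    obtain ⟨p, h1, h2, -⟩ := p
    rw [one_smul] at h2
    exact h1 h2
  exact Nat.card_of_isEmpty

variable [MulAction.IsMultiplyPretransitive G Ω 4]

theorem irr_chA (h4 : 4 ≤ Nat.card Ω) : IsIrrCharacter G (chA (G := G) Ω) := by
  refine irr_of_gen (gen_chA Ω) (norm_chA Ω h4) (2 * (Nat.card Ω - 1)) (by omega) ?_
  simp only [chA, fx_one]
  rw [Nat.cast_mul, Nat.cast_sub (by omega)]
  simp

theorem irr_chB (h4 : 4 ≤ Nat.card Ω) : IsIrrCharacter G (chB (G := G) Ω) := by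
  refine irr_of_gen (gen_chB Ω) (norm_chB Ω h4) (Nat.card Ω * (Nat.card Ω - 3))
    (Nat.mul_pos (by omega) (by omega)) ?_
  simp only [chB, fx_one, tw_one]
  rw [Nat.cast_mul, Nat.cast_sub (by omega)]
  simp
  ring

theorem irr_chC (h4 : 4 ≤ Nat.card Ω) : IsIrrCharacter G (chC (G := G) Ω) := by
  refine irr_of_gen (gen_chC Ω) (norm_chC Ω h4) ((Nat.card Ω - 1) * (Nat.card Ω - 2))
    (Nat.mul_pos (by omega) (by omega)) ?_
  simp only [chC, fx_one, tw_one]
  rw [Nat.cast_mul, Nat.cast_sub (by omega), Nat.cast_sub (by omega)]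
  simp
  ring

end irr

end Cfsg.Agent.Lib.Helper68.AV
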