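import Mathlib
import Cfsg.Agent.Lib.Helper68.AV.Irr
import Cfsg.Agent.Lib.Helper68.AV.CT1
import Cfsg.Agent.Lib.Helper68.AV.CT2
import Cfsg.Agent.Lib.Helper68.AV.CT3
import Cfsg.Agent.Lib.Helper68.AV.CT4
import Cfsg.Agent.Lib.Helper68.AV.AR

set_option autoImplicit false

/-! Assembly for S4560. -/

namespace Cfsg.Agent.Lib.Helper68.AV

open Cfsg

variable {n : ℕ}

theorem trS : MulAction.IsMultiplyPretransitive (Equiv.Perm (Fin n)) (Fin n) 4 :=
  Equiv.Perm.isMultiplyPretransitive _ 4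

theorem trA (hn : 7 ≤ n) :
    MulAction.IsMultiplyPretransitive (alternatingGroup (Fin n)) (Fin n) 4 := by
  have := alternatingGroup.isMultiplyPretransitive (Fin n)
  exact MulAction.isMultiplyPretransitive_of_le (n := Nat.card (Fin n) - 2) (m := 4)
    (by simp; omega) (by simp)

/-- the conclusion for one prime -/
def Concl (n : ℕ) (P : alternatingGroup (Fin n) → Prop) : Prop :=
  ∃ χ : IrrCharacter (alternatingGroup (Fin n)),
    (∃ x : alternatingGroup (Fin n), P x ∧ (χ : alternatingGroup (Fin n) → ℂ) x = 0) ∧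
    ∃ ψ : IrrCharacter (Equiv.Perm (Fin n)), ∀ x : alternatingGroup (Fin n),
      (ψ : Equiv.Perm (Fin n) → ℂ) x = (χ : alternatingGroup (Fin n) → ℂ) x

theorem packA (hn : 7 ≤ n) (P : alternatingGroup (Fin n) → Prop) (x : alternatingGroup (Fin n))
    (hP : P x) (h0 : chA (Fin n) (x : Equiv.Perm (Fin n)) = 0) : Concl n P := by
  have := trS (n := n)
  have := trA hn
  have h4 : 4 ≤ Nat.card (Fin n) := by simp; omega
  exact ⟨⟨_, irr_chA (G := alternatingGroup (Fin n)) (Fin n) h4⟩, ⟨x, hP, h0⟩,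
    ⟨_, irr_chA (G := Equiv.Perm (Fin n)) (Fin n) h4⟩, fun _ => rfl⟩

theorem packB (hn : 7 ≤ n) (P : alternatingGroup (Fin n) → Prop) (x : alternatingGroup (Fin n))
    (hP : P x) (h0 : chB (Fin n) (x : Equiv.Perm (Fin n)) = 0) : Concl n P := by
  have := trS (n := n)
  have := trA hn
  have h4 : 4 ≤ Nat.card (Fin n) := by simp; omega
  exact ⟨⟨_, irr_chB (G := alternatingGroup (Fin n)) (Fin n) h4⟩, ⟨x, hP, h0⟩,
    ⟨_, irr_chB (G := Equiv.Perm (Fin n)) (Fin n) h4⟩, fun _ => rfl⟩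

theorem packC (hn : 7 ≤ n) (P : alternatingGroup (Fin n) → Prop) (x : alternatingGroup (Fin n))
    (hP : P x) (h0 : chC (Fin n) (x : Equiv.Perm (Fin n)) = 0) : Concl n P := by
  have := trS (n := n)
  have := trA hn
  have h4 : 4 ≤ Nat.card (Fin n) := by simp; omega
  exact ⟨⟨_, irr_chC (G := alternatingGroup (Fin n)) (Fin n) h4⟩, ⟨x, hP, h0⟩,
    ⟨_, irr_chC (G := Equiv.Perm (Fin n)) (Fin n) h4⟩, fun _ => rfl⟩

theorem concl_two (hn : 7 ≤ n) : Concl n (fun x => ∃ j : ℕ, orderOf x = 2 ^ j) := by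
  have hcases : n % 2 = 1 ∨ n % 4 = 0 ∨ n % 4 = 2 := by omega
  rcases hcases with h | h | h
  · obtain ⟨M, hM, hev, hsum⟩ := exists_multiset_two_four (n - 1) (by omega) (by omega)
    obtain ⟨x, hx, ⟨j, hj⟩, hct⟩ := exists_two_elt (n := n) M
      (fun a ha => by rcases hM a ha with h | h <;> simp [h]) hev (by omega)
    refine packA hn _ ⟨x, hx⟩ ⟨j, by rw [Subgroup.orderOf_mk]; exact hj⟩ ?_
    have hf : fx (Fin n) x = 1 := by
      rw [fx_eq_sub_sum_cycleType, hct, hsum]; omega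
    simp [chA, hf]
  · obtain ⟨M, hM, hev, hsum⟩ := exists_multiset_four_eight n h (by omega)
    obtain ⟨x, hx, ⟨j, hj⟩, hct⟩ := exists_two_elt (n := n) M
      (fun a ha => by rcases hM a ha with h | h <;> simp [h]) hev (by omega)
    refine packB hn _ ⟨x, hx⟩ ⟨j, by rw [Subgroup.orderOf_mk]; exact hj⟩ ?_
    have hf : fx (Fin n) x = 0 := by
      rw [fx_eq_sub_sum_cycleType, hct, hsum]; omega
    have ht : tw (Fin n) x = 0 := by
      apply tw_eq_zero_of_two_not_mem
      rw [hct]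
      intro h2
      rcases hM 2 h2 with h | h <;> omega
    simp [chB, hf, ht]
  · obtain ⟨M, hM, hev, hsum⟩ := exists_multiset_four_eight (n - 2) (by omega) (by omega)
    obtain ⟨x, hx, ⟨j, hj⟩, hct⟩ := exists_two_elt (n := n) M
      (fun a ha => by rcases hM a ha with h | h <;> simp [h]) hev (by omega)
    refine packC hn _ ⟨x, hx⟩ ⟨j, by rw [Subgroup.orderOf_mk]; exact hj⟩ ?_
    have hf : fx (Fin n) x = 2 := by
      rw [fx_eq_sub_sum_cycleType, hct, hsum]; omega
    have ht : tw (Fin n) x = 0 := by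
      apply tw_eq_zero_of_two_not_mem
      rw [hct]
      intro h2
      rcases hM 2 h2 with h | h <;> omega
    simp [chC, hf, ht]

theorem concl_three (hn : 7 ≤ n) : Concl n (fun y => orderOf y = 3) := by
  obtain ⟨y, hy, ho, hct⟩ := exists_three_elt (n := n) (n / 3) (by omega) (by omega)
  have hf : fx (Fin n) y = n % 3 := by
    rw [fx_eq_sub_sum_cycleType, hct, Multiset.sum_replicate, smul_eq_mul]; omega
  have ht : tw (Fin n) y = 0 := by
    apply tw_eq_zero_of_two_not_mem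
    rw [hct]
    intro h2
    have := Multiset.eq_of_mem_replicate h2
    omega
  have hcases : n % 3 = 0 ∨ n % 3 = 1 ∨ n % 3 = 2 := by omega
  rcases hcases with h | h | h
  · refine packB hn _ ⟨y, hy⟩ (by rw [Subgroup.orderOf_mk]; exact ho) ?_
    simp [chB, hf, ht, h]
  · refine packC hn _ ⟨y, hy⟩ (by rw [Subgroup.orderOf_mk]; exact ho) ?_
    simp [chC, hf, ht, h]
  · refine packC hn _ ⟨y, hy⟩ (by rw [Subgroup.orderOf_mk]; exact ho) ?_
    simp [chC, hf, ht, h]

end Cfsg.Agent.Lib.Helper68.AV
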